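import Cfsg.Agent.Lib.FixHalf.Perm
import Cfsg.Agent.Lib.FixSpace.Homogeneous

/-!
Fixed space of a normally generating element of prime order at least five, in the presence of an abelian
normal subgroup not centralized by it.
-/

set_option autoImplicit false
set_option linter.unusedSectionVars false

namespace Cfsg.Agent.Lib.FixHalf

open Subgroup
open Cfsg.Agent.Lib.FixSpace (Irred inv_apply apply_inv)

variable {k V G : Type*} [Field k] [AddCommGroup V] [Module k V] [Group G]
  {ρ : G →* Module.End k V}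

theorem rho_inv_mul (g : G) : ρ g⁻¹ * ρ g = 1 := by rw [← map_mul, inv_mul_cancel, map_one]

theorem rho_mul_inv (g : G) : ρ g * ρ g⁻¹ = 1 := by rw [← map_mul, mul_inv_cancel, map_one]

theorem rho_injective (g : G) : Function.Injective (ρ g) := fun a b h => by
  simpa only [inv_apply] using congrArg (ρ g⁻¹) h

variable [Finite G] [FiniteDimensional k V]

/-- A normal abelian subgroup of exponent `q` in a faithful irreducible group has `q` invertible. -/
theorem exponent_ne_zero (hirr : Irred ρ) (hinj : Function.Injective ρ) [Nontrivial V] (A : Subgroup G)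
    [hA : A.Normal] (hc : ∀ a ∈ A, ∀ b ∈ A, a * b = b * a) {q : ℕ} [hq : Fact q.Prime]
    (hexp : ∀ a ∈ A, a ^ q = 1) (hA1 : A ≠ ⊥) : (q : k) ≠ 0 := by
  classical
  intro h0
  haveI : CharP k q := (CharP.charP_iff_prime_eq_zero hq.out).mpr h0
  haveI : CharP (Module.End k V) q :=
    charP_of_injective_algebraMap (FaithfulSMul.algebraMap_injective k (Module.End k V)) q
  haveI := Fintype.ofFinite A
  have key : ∀ s : Finset A, ∃ v : V, v ≠ 0 ∧ ∀ a ∈ s, ρ (a : A) v = v := by
    intro s
    induction s using Finset.induction_on with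
    | empty => obtain ⟨v, hv⟩ := exists_ne (0 : V); exact ⟨v, hv, by simp⟩
    | insert a s has ih =>
      obtain ⟨v, hv, hfix⟩ := ih
      set T := ρ (a : A) - 1 with hT
      have hTq : T ^ q = 0 := by
        rw [hT, sub_pow_char_of_commute _ (Commute.one_right _), one_pow, ← map_pow, hexp _ a.2, map_one, sub_self]
      have hex : ∃ n, (T ^ n) v = 0 := ⟨q, by rw [hTq]; rfl⟩
      have hn0 : Nat.find hex ≠ 0 := fun h => hv (by simpa [h] using Nat.find_spec hex)
      obtain ⟨m, hm⟩ := Nat.exists_eq_succ_of_ne_zero hn0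
      refine ⟨(T ^ m) v, Nat.find_min hex (by omega), fun b hb => ?_⟩
      rcases Finset.mem_insert.mp hb with rfl | hb
      · have h := Nat.find_spec hex
        rw [hm, pow_succ', Module.End.mul_apply] at h
        simpa [hT, sub_eq_zero] using h
      · have hcm : Commute (ρ (b : A)) T := by
          rw [hT]
          exact ((show Commute (b : G) (a : G) from hc b b.2 a a.2).map ρ).sub_right (Commute.one_right _)
        rw [← Module.End.mul_apply, (hcm.pow_right m).eq, Module.End.mul_apply, hfix b hb]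
  obtain ⟨v, hv, hfix⟩ := key Finset.univ
  let W : Submodule k V := ⨅ a : A, LinearMap.ker (ρ (a : G) - 1)
  have hW : ∀ g, W.map (ρ g) ≤ W := by
    rintro g _ ⟨w, hw, rfl⟩
    simp only [W, SetLike.mem_coe, Submodule.mem_iInf, LinearMap.mem_ker, LinearMap.sub_apply,
      Module.End.one_apply, sub_eq_zero] at hw ⊢
    intro a
    have h := congrArg (ρ g) (hw ⟨g⁻¹ * a * g, by simpa using hA.conj_mem a a.2 g⁻¹⟩)
    rwa [map_mul, map_mul, Module.End.mul_apply, Module.End.mul_apply, apply_inv] at h
  have hvW : v ∈ W := by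
    simp only [W, Submodule.mem_iInf, LinearMap.mem_ker, LinearMap.sub_apply, Module.End.one_apply, sub_eq_zero]
    exact fun a => hfix a (Finset.mem_univ a)
  rcases hirr W hW with h | h
  · exact hv ((Submodule.mem_bot k).mp (h ▸ hvW))
  · refine hA1 ((eq_bot_iff_forall _).mpr fun a ha => hinj ?_)
    rw [map_one]
    refine LinearMap.ext fun w => ?_
    have hw : w ∈ W := h ▸ Submodule.mem_top
    simp only [W, Submodule.mem_iInf, LinearMap.mem_ker, LinearMap.sub_apply, Module.End.one_apply, sub_eq_zero] at hw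
    exact hw ⟨a, ha⟩

/-- The algebra generated by an abelian subgroup. -/
noncomputable def imgAlg (ρ : G →* Module.End k V) (N : Subgroup G) : Subalgebra k (Module.End k V) :=
  (MonoidAlgebra.lift k (Module.End k V) N (ρ.comp N.subtype)).range

theorem rho_mem_imgAlg (N : Subgroup G) {n : G} (hn : n ∈ N) : ρ n ∈ imgAlg ρ N :=
  ⟨MonoidAlgebra.of k N ⟨n, hn⟩, MonoidAlgebra.lift_of _ _⟩

theorem imgAlg_conj (N : Subgroup G) [hN : N.Normal] (g : G) {a : Module.End k V} (ha : a ∈ imgAlg ρ N) :
    ρ g * a * ρ g⁻¹ ∈ imgAlg ρ N := by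
  obtain ⟨r, rfl⟩ := ha
  show ρ g * MonoidAlgebra.lift k (Module.End k V) N (ρ.comp N.subtype) r * ρ g⁻¹ ∈ _
  induction r using MonoidAlgebra.induction_on with
  | of z =>
    rw [MonoidAlgebra.lift_of]
    simp only [MonoidHom.coe_comp, Function.comp_apply, Subgroup.coe_subtype]
    rw [← map_mul, ← map_mul]
    exact rho_mem_imgAlg N (hN.conj_mem z z.2 g)
  | add y z hy hz => rw [map_add, mul_add, add_mul]; exact add_mem hy hz
  | smul c y hy => rw [map_smul, mul_smul_comm, smul_mul_assoc]; exact Subalgebra.smul_mem _ hy c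

/-- The bound `2 w < D` from a permuted decomposition. -/
theorem two_mul_lt_of_idem [Group.IsSolvable G] (hirr : Irred ρ) {p : ℕ} [hp : Fact p.Prime] (h5 : 5 ≤ p)
    {x : G} (hx : x ^ p = 1) (hgen : normalClosure ({x} : Set G) = ⊤) (R : Subalgebra k (Module.End k V))
    (hcomm : ∀ a ∈ R, ∀ b ∈ R, a * b = b * a) (hstab : ∀ g, ∀ a ∈ R, ρ g * a * ρ g⁻¹ ∈ R)
    {e : Module.End k V} (heR : e ∈ R) (hee : e * e = e) (he0 : e ≠ 0) (he1 : e ≠ 1) :
    2 * Module.finrank k (LinearMap.ker (ρ x - 1)) < Module.finrank k V := by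
  classical
  haveI := Fintype.ofFinite G
  letI : CommRing R := { (inferInstance : Ring R) with mul_comm := fun a b => Subtype.ext (hcomm a a.2 b b.2) }
  let c : G → R → R := fun g a => ⟨ρ g * a * ρ g⁻¹, hstab g a a.2⟩
  have hc_mul : ∀ g a b, c g (a * b) = c g a * c g b := fun g a b => Subtype.ext (by
    show ρ g * ((a : Module.End k V) * b) * ρ g⁻¹ = (ρ g * a * ρ g⁻¹) * (ρ g * b * ρ g⁻¹)
    calc ρ g * ((a : Module.End k V) * b) * ρ g⁻¹ = ρ g * ((a : Module.End k V) * (ρ g⁻¹ * ρ g) * b) * ρ g⁻¹ := by
          rw [rho_inv_mul, mul_one]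
      _ = _ := by simp only [mul_assoc])
  have hc_one : ∀ g, c g 1 = 1 := fun g => Subtype.ext (by simp [c, rho_mul_inv])
  have hc_sub : ∀ g a b, c g (a - b) = c g a - c g b := fun g a b => Subtype.ext (by simp [c, mul_sub, sub_mul])
  have hc_comp : ∀ g h a, c g (c h a) = c (g * h) a := fun g h a => Subtype.ext (by
    show ρ g * (ρ h * a * ρ h⁻¹) * ρ g⁻¹ = ρ (g * h) * a * ρ (g * h)⁻¹
    rw [mul_inv_rev, map_mul, map_mul]; simp only [mul_assoc])
  have hc1 : ∀ a, c 1 a = a := fun a => Subtype.ext (by simp [c])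
  have hc_prod : ∀ g (s : Finset R) (f : R → R), c g (∏ a ∈ s, f a) = ∏ a ∈ s, c g (f a) := by
    intro g s f
    induction s using Finset.induction_on with
    | empty => simp [hc_one]
    | insert a s has ih => rw [Finset.prod_insert has, Finset.prod_insert has, hc_mul, ih]
  set S : Finset R := Finset.univ.image fun g => c g ⟨e, heR⟩ with hS
  have hSidem : ∀ s ∈ S, s * s = s := by
    intro s hs
    obtain ⟨g, -, rfl⟩ := Finset.mem_image.mp hs
    rw [← hc_mul]; congr 1; exact Subtype.ext hee
  have hSimg : ∀ g, S.image (c g) = S := by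
    intro g
    ext s
    simp only [hS, Finset.image_image, Finset.mem_image, Finset.mem_univ, true_and, Function.comp_apply, hc_comp]
    exact ⟨fun ⟨h, hh⟩ => ⟨g * h, hh⟩, fun ⟨h, hh⟩ => ⟨g⁻¹ * h, by rwa [mul_inv_cancel_left]⟩⟩
  have hcinj : ∀ g, Function.Injective (c g) := fun g a b h => by
    have := congrArg (c g⁻¹) h
    rwa [hc_comp, hc_comp, inv_mul_cancel, hc1, hc1] at this
  let atom : Finset R → R := fun T => (∏ s ∈ T, s) * ∏ s ∈ S \ T, (1 - s)
  have hatom : ∀ g T, c g (atom T) = atom (T.image (c g)) := by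
    intro g T
    simp only [atom, hc_mul, hc_prod, hc_sub, hc_one]
    rw [Finset.prod_image (fun a _ b _ h => hcinj g h)]
    congr 1
    conv_rhs => rw [← hSimg g, ← Finset.image_sdiff _ _ (hcinj g), Finset.prod_image (fun a _ b _ h => hcinj g h)]
  have hsum : ∑ T ∈ S.powerset, atom T = 1 := by
    have h := Finset.prod_add (fun s : R => s) (fun s => 1 - s) S
    simp only [add_sub_cancel, Finset.prod_const_one] at h
    exact h.symm
  have horth : ∀ T ∈ S.powerset, ∀ T' ∈ S.powerset, T ≠ T' → atom T * atom T' = 0 := by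
    intro T hT T' hT' hne
    have key : ∀ T T' : Finset R, T ⊆ S → ∀ s, s ∈ T → s ∉ T' → atom T * atom T' = 0 := by
      intro T T' hT s hs hs'
      have h1 : s ∣ atom T := Dvd.dvd.mul_right (Finset.dvd_prod_of_mem _ hs) _
      have h2 : 1 - s ∣ atom T' := Dvd.dvd.mul_left
        (Finset.dvd_prod_of_mem (fun s => 1 - s) (Finset.mem_sdiff.mpr ⟨hT hs, hs'⟩)) _
      have h3 := mul_dvd_mul h1 h2
      rw [mul_sub, mul_one, hSidem s (hT hs), sub_self] at h3
      exact zero_dvd_iff.mp h3
    obtain ⟨s, hs⟩ : ∃ s, ¬(s ∈ T ↔ s ∈ T') := by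
      by_contra h; push Not at h; exact hne (Finset.ext h)
    by_cases h : s ∈ T
    · exact key T T' (Finset.mem_powerset.mp hT) s h fun h' => hs (iff_of_true h h')
    · rw [mul_comm]; exact key T' T (Finset.mem_powerset.mp hT') s (by tauto) h
  have hidem : ∀ T ∈ S.powerset, atom T * atom T = atom T := by
    intro T hT
    conv_rhs => rw [← mul_one (atom T), ← hsum, Finset.mul_sum,
      Finset.sum_eq_single T (fun T' hT' h => horth T hT T' hT' h.symm) (fun h => absurd hT h)]
  let ι := {T : Finset R // T ⊆ S ∧ atom T ≠ 0}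
  haveI : Finite ι := Finite.of_injective (fun T : ι => (⟨T.1, Finset.mem_powerset.mpr T.2.1⟩ : S.powerset))
    fun a b h => Subtype.ext (congrArg (fun z : S.powerset => z.1) h)
  haveI := Fintype.ofFinite ι
  letI : MulAction G ι :=
    { smul := fun g T => ⟨T.1.image (c g), (Finset.image_subset_image T.2.1).trans (hSimg g).le, fun h => T.2.2 (by
          rw [← hatom] at h
          exact hcinj g (h.trans (Subtype.ext (by simp [c]))))⟩
      one_smul := fun T => Subtype.ext (by
        show T.1.image (c 1) = T.1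
        conv_rhs => rw [← Finset.image_id (s := T.1)]
        exact Finset.image_congr fun a _ => hc1 a)
      mul_smul := fun g h T => Subtype.ext (by
        show T.1.image (c (g * h)) = (T.1.image (c h)).image (c g)
        rw [Finset.image_image]
        exact Finset.image_congr fun a _ => (hc_comp g h a).symm) }
  let π : ι → V →ₗ[k] V := fun T => ((atom T.1 : R) : Module.End k V)
  have hconj : ∀ g (T : ι) v, π (g • T) (ρ g v) = ρ g (π T v) := by
    intro g T v
    show ((atom (T.1.image (c g)) : R) : Module.End k V) (ρ g v) = _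
    rw [← hatom]
    show (ρ g * (atom T.1 : R) * ρ g⁻¹ : Module.End k V) (ρ g v) = _
    rw [Module.End.mul_apply, Module.End.mul_apply, inv_apply]
  have hsumπ : ∀ v, ∑ T : ι, π T v = v := by
    intro v
    have h1 : ∑ T : ι, (atom T.1 : R) = 1 := by
      rw [← hsum]
      refine Finset.sum_bij_ne_zero (fun T _ _ => T.1) (fun T _ _ => Finset.mem_powerset.mpr T.2.1)
        (fun a _ _ b _ _ h => Subtype.ext h) (fun T hT h => ⟨⟨T, Finset.mem_powerset.mp hT, h⟩, Finset.mem_univ _, h, rfl⟩)
        (fun _ _ _ => rfl)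
    have h2 := congrArg (fun r : R => ((r : Module.End k V)) v) h1
    simpa [π, LinearMap.sum_apply] using h2
  have hπ : ∀ T T' : ι, ∀ v, π T (π T' v) = if T = T' then π T v else 0 := by
    intro T T' v
    show (((atom T.1 : R) : Module.End k V) * ((atom T'.1 : R) : Module.End k V)) v = _
    rw [← Subalgebra.coe_mul]
    split
    · subst ‹T = T'›; rw [hidem _ (Finset.mem_powerset.mpr T.2.1)]
    · rw [horth _ (Finset.mem_powerset.mpr T.2.1) _ (Finset.mem_powerset.mpr T'.2.1)
        (fun h => ‹¬T = T'› (Subtype.ext h))]; rfl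
  haveI : MulAction.IsPretransitive G ι := by
    refine ⟨fun A B => ?_⟩
    by_contra hno
    push Not at hno
    let W : Submodule k V := ⨆ g : G, LinearMap.range (π (g • A))
    have hW : ∀ g, W.map (ρ g) ≤ W := fun g => by
      rw [Submodule.map_iSup]
      refine iSup_le fun h => ?_
      rintro _ ⟨_, ⟨v, rfl⟩, rfl⟩
      refine Submodule.mem_iSup_of_mem (g * h) ⟨ρ g v, ?_⟩
      rw [mul_smul, hconj]
    rcases hirr W hW with h | h
    · refine A.2.2 (Subtype.ext (LinearMap.ext fun v => ?_))
      have : π A v ∈ W := Submodule.mem_iSup_of_mem 1 (by rw [one_smul]; exact ⟨v, rfl⟩)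
      rw [h] at this
      simpa [π] using this
    · have hker : W ≤ LinearMap.ker (π B) := iSup_le fun g => by
        rintro _ ⟨v, rfl⟩
        rw [LinearMap.mem_ker, hπ, if_neg fun hh => hno g hh.symm]
      rw [h, top_le_iff, LinearMap.ker_eq_top] at hker
      exact B.2.2 (Subtype.ext hker)
  haveI : Nontrivial ι := by
    rw [← not_subsingleton_iff_nontrivial]
    intro hs
    obtain ⟨v, hv⟩ : ∃ v, e v ≠ 0 := by
      by_contra h; push Not at h; exact he0 (LinearMap.ext h)
    haveI : Nonempty ι := by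
      by_contra hne
      rw [not_nonempty_iff] at hne
      have := hsumπ (e v)
      rw [Finset.univ_eq_empty, Finset.sum_empty] at this
      exact hv this.symm
    obtain ⟨A⟩ := (inferInstance : Nonempty ι)
    have h1 : (atom A.1 : R) = 1 := Subtype.ext (LinearMap.ext fun w => by
      have := hsumπ w
      rwa [Fintype.sum_subsingleton _ A] at this)
    have heS : (⟨e, heR⟩ : R) ∈ S := Finset.mem_image.mpr ⟨1, Finset.mem_univ _, hc1 _⟩
    by_cases hm : (⟨e, heR⟩ : R) ∈ A.1
    · obtain ⟨r, hr⟩ : (⟨e, heR⟩ : R) ∣ atom A.1 := Dvd.dvd.mul_right (Finset.dvd_prod_of_mem _ hm) _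
      rw [h1] at hr
      have h2 : (⟨e, heR⟩ : R) = 1 := by
        calc (⟨e, heR⟩ : R) = ⟨e, heR⟩ * (⟨e, heR⟩ * r) := by rw [← hr, mul_one]
          _ = 1 := by rw [← mul_assoc, hSidem _ heS, ← hr]
      exact he1 (congrArg Subtype.val h2)
    · obtain ⟨r, hr⟩ : 1 - (⟨e, heR⟩ : R) ∣ atom A.1 :=
        Dvd.dvd.mul_left (Finset.dvd_prod_of_mem (fun s => 1 - s) (Finset.mem_sdiff.mpr ⟨heS, hm⟩)) _
      rw [h1] at hr
      have h2 : (⟨e, heR⟩ : R) = 0 := by
        calc (⟨e, heR⟩ : R) = ⟨e, heR⟩ * ((1 - ⟨e, heR⟩) * r) := by rw [← hr, mul_one]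
          _ = 0 := by rw [← mul_assoc, mul_sub, mul_one, hSidem _ heS, sub_self, zero_mul]
      exact he0 (congrArg Subtype.val h2)
  -- all pieces have the same dimension
  obtain ⟨A⟩ := (inferInstance : Nonempty ι)
  set d := Module.finrank k (LinearMap.range (π A))
  have hdim : ∀ T, Module.finrank k (LinearMap.range (π T)) = d := by
    intro T
    obtain ⟨g, rfl⟩ := MulAction.exists_smul_eq G A T
    have hr : LinearMap.range (π (g • A)) = (LinearMap.range (π A)).map (ρ g) := by
      apply le_antisymm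
      · rintro _ ⟨v, rfl⟩
        refine ⟨π A (ρ g⁻¹ v), ⟨_, rfl⟩, ?_⟩
        rw [← hconj, apply_inv]
      · rintro _ ⟨_, ⟨v, rfl⟩, rfl⟩
        exact ⟨ρ g v, hconj g A v⟩
    rw [hr]
    exact (Submodule.equivMapOfInjective (ρ g) (rho_injective g) _).finrank_eq.symm
  have hd0 : 0 < d := by
    rw [Nat.pos_iff_ne_zero]
    intro h0
    rw [Submodule.finrank_eq_zero, LinearMap.range_eq_bot] at h0
    exact A.2.2 (Subtype.ext h0)
  have hD : Nat.card ι * d ≤ Module.finrank k V := by
    let f : ((T : ι) → LinearMap.range (π T)) →ₗ[k] V := ∑ T : ι, (Submodule.subtype _).comp (LinearMap.proj T)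
    have hf : Function.Injective f := by
      rw [injective_iff_map_eq_zero]
      intro u hu
      funext T
      apply Subtype.ext
      have h1 := congrArg (π T) hu
      simp only [f, LinearMap.sum_apply, LinearMap.comp_apply, LinearMap.proj_apply, Submodule.subtype_apply,
        map_sum, map_zero] at h1
      rw [Finset.sum_eq_single T] at h1
      · obtain ⟨v, hv⟩ := (u T).2
        rw [← hv, hπ, if_pos rfl, hv] at h1
        exact h1
      · intro T' _ hne
        obtain ⟨v, hv⟩ := (u T').2
        rw [← hv, hπ, if_neg hne.symm]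
      · simp
    have := LinearMap.finrank_le_finrank_of_injective hf
    rwa [Module.finrank_pi_fintype, Finset.sum_congr rfl (fun T _ => hdim T), Finset.sum_const,
      Finset.card_univ, smul_eq_mul, ← Nat.card_eq_fintype_card] at this
  set σ : Equiv.Perm ι := MulAction.toPermHom G ι x
  have hσ : σ ^ p = 1 := by rw [← map_pow, hx, map_one]
  have hO := orbit_count σ hσ
  have hW := fix_le_orbits σ (ρ x) π d (fun T => (hdim T).le)
    (fun u hu => by rw [← hsumπ u]; exact Finset.sum_eq_zero fun T _ => hu T) (fun T u => hconj x T u)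
  have hf5 : 5 * Nat.card {T : ι // σ T = T} ≤ Nat.card ι := fixed_le_fifth h5 hx hgen
  have hn : 1 < Nat.card ι := Finite.one_lt_card
  set O := Nat.card (Quotient (MulAction.orbitRel (Subgroup.zpowers σ) ι))
  have h2O : 2 * O < Nat.card ι := by
    set f := Nat.card {T : ι // σ T = T}
    set n := Nat.card ι
    by_contra hlt
    push Not at hlt
    nlinarith
  calc 2 * Module.finrank k (LinearMap.ker (ρ x - 1)) ≤ 2 * (O * d) := Nat.mul_le_mul_left 2 hW
    _ = 2 * O * d := by ring
    _ < Nat.card ι * d := Nat.mul_lt_mul_of_pos_right h2O hd0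
    _ ≤ _ := hD

/-- The bound `p w ≤ D` when the algebra is a field moved by `x`. -/
theorem mul_le_of_field {p : ℕ} [hp : Fact p.Prime] {x : G} (hx : x ^ p = 1)
    (R : Subalgebra k (Module.End k V)) (hcomm : ∀ a ∈ R, ∀ b ∈ R, a * b = b * a)
    (hstab : ∀ g, ∀ a ∈ R, ρ g * a * ρ g⁻¹ ∈ R)
    (hfield : ∀ a ∈ R, a ≠ 0 → ∃ b ∈ R, a * b = 1) {a : Module.End k V} (haR : a ∈ R)
    (hax : ρ x * a * ρ x⁻¹ ≠ a) :
    p * Module.finrank k (LinearMap.ker (ρ x - 1)) ≤ Module.finrank k V := by
  classical
  letI : CommRing R := { (inferInstance : Ring R) with mul_comm := fun a b => Subtype.ext (hcomm a a.2 b b.2) }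
  let α : Fin p → R := fun j => ⟨ρ (x ^ (j : ℕ)) * a * ρ (x ^ (j : ℕ))⁻¹, hstab _ a haR⟩
  have hαinj : Function.Injective α := by
    intro i j hij
    by_contra hne
    have key : ∀ i j : Fin p, (i : ℕ) < (j : ℕ) → α i = α j → False := by
      intro i j hlt hij
      apply hax
      set d := (j : ℕ) - i with hd
      have hh : ρ (x ^ d) * a * ρ (x ^ d)⁻¹ = a := by
        have h1 := congrArg (fun z : R => ρ (x ^ (i : ℕ))⁻¹ * (z : Module.End k V) * ρ (x ^ (i : ℕ))) hij
        simp only [α] at h1
        calc ρ (x ^ d) * a * ρ (x ^ d)⁻¹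
            = ρ (x ^ (i : ℕ))⁻¹ * (ρ (x ^ (j : ℕ)) * a * ρ (x ^ (j : ℕ))⁻¹) * ρ (x ^ (i : ℕ)) := by
              rw [show (j : ℕ) = i + d by omega, pow_add, mul_inv_rev, map_mul, map_mul]
              simp only [← mul_assoc, rho_inv_mul, one_mul]
              simp only [mul_assoc, rho_inv_mul, mul_one]
          _ = a := by
              rw [← h1]
              simp only [← mul_assoc, rho_inv_mul, one_mul]
              simp only [mul_assoc, rho_inv_mul, mul_one]
      let St : Subgroup G :=
        { carrier := {g | ρ g * a = a * ρ g}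
          one_mem' := by simp
          mul_mem' := fun {g h} hg hh => by
            show ρ (g * h) * a = a * ρ (g * h)
            rw [map_mul, mul_assoc, (show ρ h * a = a * ρ h from hh), ← mul_assoc,
              (show ρ g * a = a * ρ g from hg), mul_assoc]
          inv_mem' := fun {g} hg => by
            show ρ g⁻¹ * a = a * ρ g⁻¹
            calc ρ g⁻¹ * a = ρ g⁻¹ * (a * ρ g) * ρ g⁻¹ := by
                  simp only [mul_assoc, rho_mul_inv, mul_one]
              _ = _ := by
                  rw [← (show ρ g * a = a * ρ g from hg)]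
                  simp only [← mul_assoc, rho_inv_mul, one_mul] }
      have hdSt : x ^ d ∈ St := by
        show ρ (x ^ d) * a = a * ρ (x ^ d)
        conv_rhs => rw [← hh]
        simp only [mul_assoc, rho_inv_mul, mul_one]
      have hcop : d.Coprime p := (hp.out.coprime_iff_not_dvd.mpr fun h => by
        have h2 : 0 < d := by omega
        have := Nat.le_of_dvd h2 h
        have := j.2
        omega).symm
      have hxSt : x ∈ St := by
        obtain ⟨m, hm⟩ := exists_pow_eq_self_of_coprime
          (Nat.Coprime.coprime_dvd_right (orderOf_dvd_of_pow_eq_one hx) hcop)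
        rw [← hm]; exact pow_mem hdSt m
      rw [(show ρ x * a = a * ρ x from hxSt), mul_assoc, rho_mul_inv, mul_one]
    rcases lt_or_gt_of_ne (Fin.val_ne_of_ne hne) with h | h
    · exact key i j h hij
    · exact key j i h hij.symm
  have hdet : IsUnit (Matrix.vandermonde α).det := by
    rw [Matrix.det_vandermonde]
    refine IsUnit.prod_iff.mpr fun i _ => IsUnit.prod_iff.mpr fun j hj => ?_
    have hne : α j - α i ≠ 0 := sub_ne_zero.mpr fun h => (Finset.mem_Ioi.mp hj).ne' (hαinj h)
    obtain ⟨b, hb, hab⟩ := hfield _ (α j - α i).2 fun h => hne (Subtype.ext h)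
    exact IsUnit.of_mul_eq_one ⟨b, hb⟩ (Subtype.ext hab)
  set W := LinearMap.ker (ρ x - 1)
  let f : (Fin p → W) →ₗ[k] V :=
    ∑ i : Fin p, ((a ^ (i : ℕ) : Module.End k V)).comp (W.subtype.comp (LinearMap.proj i))
  have hf : Function.Injective f := by
    rw [injective_iff_map_eq_zero]
    intro u hu
    have hw : ∀ (i : Fin p) (j : ℕ), ρ (x ^ j) (u i : V) = u i := by
      intro i j
      induction j with
      | zero => simp
      | succ j ih =>
        have h1 : ρ x (u i : V) = u i := by
          have := (u i).2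
          rwa [LinearMap.mem_ker, LinearMap.sub_apply, Module.End.one_apply, sub_eq_zero] at this
        rw [pow_succ, map_mul, Module.End.mul_apply, h1, ih]
    have hrow : ∀ j : Fin p, ∑ i : Fin p, ((Matrix.vandermonde α j i : R) : Module.End k V) (u i : V) = 0 := by
      intro j
      have h1 := congrArg (ρ (x ^ (j : ℕ))) hu
      simp only [f, LinearMap.sum_apply, LinearMap.comp_apply, LinearMap.proj_apply, Submodule.subtype_apply,
        map_sum, map_zero] at h1
      rw [← h1]
      refine Finset.sum_congr rfl fun i _ => ?_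
      have hpow : ∀ n : ℕ, (ρ (x ^ (j : ℕ)) * a * ρ (x ^ (j : ℕ))⁻¹) ^ n =
          ρ (x ^ (j : ℕ)) * a ^ n * ρ (x ^ (j : ℕ))⁻¹ := by
        intro n
        induction n with
        | zero => rw [pow_zero, pow_zero, mul_one, rho_mul_inv]
        | succ n ih =>
          rw [pow_succ, pow_succ, ih]
          simp only [mul_assoc]
          rw [← mul_assoc (ρ (x ^ (j : ℕ))⁻¹), rho_inv_mul, one_mul]
      rw [Matrix.vandermonde_apply, Subalgebra.coe_pow, hpow, Module.End.mul_apply, Module.End.mul_apply]
      conv_lhs => rw [← hw i j, inv_apply]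
    funext l
    apply Subtype.ext
    have hinv := Matrix.nonsing_inv_mul _ hdet
    set M := Matrix.vandermonde α
    calc (u l : V) = ∑ i : Fin p, (((1 : Matrix (Fin p) (Fin p) R) l i : R) : Module.End k V) (u i : V) := by
          rw [Finset.sum_eq_single l]
          · simp
          · intro i _ hi; simp [Matrix.one_apply_ne hi.symm]
          · simp
      _ = ∑ i : Fin p, ∑ j : Fin p, ((M⁻¹ l j : R) : Module.End k V) (((M j i : R) : Module.End k V) (u i : V)) := by
          refine Finset.sum_congr rfl fun i _ => ?_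
          rw [← hinv, Matrix.mul_apply]
          simp only [AddSubmonoidClass.coe_finset_sum, Subalgebra.coe_mul, LinearMap.sum_apply, Module.End.mul_apply]
      _ = 0 := by
          rw [Finset.sum_comm]
          refine Finset.sum_eq_zero fun j _ => ?_
          rw [← map_sum, hrow j, map_zero]
  have := LinearMap.finrank_le_finrank_of_injective hf
  rwa [Module.finrank_pi_fintype, Finset.sum_const, Finset.card_univ, Fintype.card_fin, smul_eq_mul] at this

/-- A commutative subalgebra without non-trivial idempotents and nilpotents is a field. -/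
theorem exists_idem_or_field (R : Subalgebra k (Module.End k V))
    (hcomm : ∀ a ∈ R, ∀ b ∈ R, a * b = b * a) (hred : ∀ a ∈ R, a * a = 0 → a = 0) :
    (∃ e ∈ R, e * e = e ∧ e ≠ 0 ∧ e ≠ 1) ∨ ∀ a ∈ R, a ≠ 0 → ∃ b ∈ R, a * b = 1 := by
  by_cases hall : ∀ a ∈ R, a ≠ 0 → ∃ b ∈ R, a * b = 1
  · exact Or.inr hall
  left
  push Not at hall
  obtain ⟨a, haR, ha0, hab⟩ := hall
  letI : CommRing R := { (inferInstance : Ring R) with mul_comm := fun a b => Subtype.ext (hcomm a a.2 b b.2) }
  haveI : Module.Finite k R := inferInstanceAs (Module.Finite k (Subalgebra.toSubmodule R))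
  haveI : IsArtinianRing R := IsArtinianRing.of_finite k R
  obtain ⟨n, y, hy⟩ := IsArtinian.exists_pow_succ_smul_dvd (⟨a, haR⟩ : R) (1 : R)
  simp only [smul_eq_mul, mul_one] at hy
  set r : R := ⟨a, haR⟩
  have hn : r ^ (n + 1) * y = r ^ n := hy
  have hpow : ∀ m, r ^ (n + m) * y ^ m = r ^ n := by
    intro m
    induction m with
    | zero => simp
    | succ m ih =>
      calc r ^ (n + (m + 1)) * y ^ (m + 1) = r ^ m * (r ^ (n + 1) * y) * y ^ m := by ring
        _ = r ^ (n + m) * y ^ m := by rw [hn]; ring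
        _ = r ^ n := ih
  set E := r ^ n * y ^ n
  have hEE : E * E = E := by
    calc E * E = (r ^ (n + n) * y ^ n) * y ^ n := by ring
      _ = E := by rw [hpow n]
  refine ⟨E, E.2, congrArg Subtype.val hEE, fun h0 => ha0 ?_, fun h1 => ?_⟩
  · have hE0 : E = 0 := Subtype.ext h0
    have hr : r ^ n = 0 := by
      rw [← hpow n, pow_add, mul_assoc, show r ^ n * y ^ n = 0 from hE0, mul_zero]
    have hnil : ∀ m : ℕ, ∀ z : R, z ^ m = 0 → z = 0 := by
      intro m
      induction m using Nat.strong_induction_on with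
      | _ m ih =>
        intro z hz
        rcases lt_or_ge m 2 with h | h
        · interval_cases m
          · rw [pow_zero] at hz
            rw [← mul_one z, hz, mul_zero]
          · rwa [pow_one] at hz
        · refine ih 1 (by omega) z ?_
          rw [pow_one]
          by_cases hzz : z * z = 0
          · exact Subtype.ext (hred z z.2 (congrArg Subtype.val hzz))
          · refine absurd (ih ((m + 1) / 2) (by omega) (z * z) ?_) hzz
            rw [← sq, ← pow_mul, show 2 * ((m + 1) / 2) = m + (2 * ((m + 1) / 2) - m) by omega, pow_add, hz,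
              zero_mul]
    exact congrArg Subtype.val (hnil n r hr)
  · have hE1 : E = 1 := Subtype.ext h1
    rcases n with _ | m
    · simp only [pow_zero, pow_one, zero_add] at hn
      exact hab y y.2 (congrArg Subtype.val hn)
    · refine hab (r ^ m * y ^ (m + 1) : R) (Subtype.prop _) ?_
      have : r * (r ^ m * y ^ (m + 1)) = 1 := by rw [← hE1]; simp only [E]; ring
      exact congrArg Subtype.val this

/-- The bound in the presence of an abelian normal subgroup moved by `x`. -/
theorem two_mul_lt_of_abelian [Group.IsSolvable G] [Nontrivial V] (hirr : Irred ρ) (hinj : Function.Injective ρ)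
    {p : ℕ} [hp : Fact p.Prime] (h5 : 5 ≤ p) {x : G} (hx : x ^ p = 1)
    (hgen : normalClosure ({x} : Set G) = ⊤) (N : Subgroup G) [N.Normal]
    (hc : ∀ a ∈ N, ∀ b ∈ N, a * b = b * a) (hcard : (Nat.card N : k) ≠ 0) {n : G} (hn : n ∈ N)
    (hxn : x * n * x⁻¹ ≠ n) :
    2 * Module.finrank k (LinearMap.ker (ρ x - 1)) < Module.finrank k V := by
  classical
  letI : CommGroup N := { (inferInstance : Group N) with mul_comm := fun a b => Subtype.ext (hc a a.2 b b.2) }
  haveI : NeZero (Nat.card N : k) := ⟨hcard⟩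
  set θ := MonoidAlgebra.lift k (Module.End k V) N (ρ.comp N.subtype)
  have hcR : ∀ a ∈ imgAlg ρ N, ∀ b ∈ imgAlg ρ N, a * b = b * a := by
    rintro _ ⟨u, rfl⟩ _ ⟨v, rfl⟩
    show θ u * θ v = θ v * θ u
    rw [← map_mul, mul_comm, map_mul]
  have hred : ∀ a ∈ imgAlg ρ N, a * a = 0 → a = 0 := by
    letI : CommRing θ.range :=
      { (inferInstance : Ring θ.range) with mul_comm := fun a b => Subtype.ext (hcR a a.2 b b.2) }
    haveI : IsSemisimpleRing θ.range :=
      RingHom.isSemisimpleRing_of_surjective θ.rangeRestrict.toRingHom θ.rangeRestrict_surjective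
    intro a ha h
    have h2 : (⟨a, ha⟩ : θ.range) ^ 2 = 0 := by rw [sq]; exact Subtype.ext h
    exact congrArg Subtype.val (IsReduced.eq_zero _ ⟨2, h2⟩)
  rcases exists_idem_or_field (imgAlg ρ N) hcR hred with ⟨e, he, hee, he0, he1⟩ | hf
  · exact two_mul_lt_of_idem hirr h5 hx hgen _ hcR (fun g a ha => imgAlg_conj N g ha) he hee he0 he1
  · have hne : ρ x * ρ n * ρ x⁻¹ ≠ ρ n := by
      rw [← map_mul, ← map_mul]; exact fun h => hxn (hinj h)
    have h := mul_le_of_field hx _ hcR (fun g a ha => imgAlg_conj N g ha) hf (rho_mem_imgAlg N hn) hne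
    have hpos : 0 < Module.finrank k V := Module.finrank_pos
    nlinarith

end Cfsg.Agent.Lib.FixHalf
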