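import Mathlib

/-!
Fixed points of a normally generating element of prime order at least five in solvable transitive groups,
and the orbit bound for fixed vectors of an operator permuting a decomposition.
-/

set_option autoImplicit false
set_option linter.unusedSectionVars false

open scoped commutatorElement

namespace Cfsg.Agent.Lib.FixHalf

section Group

open Subgroup

variable {G : Type*} [Group G] [Finite G]

theorem fixed_cosets [Group.IsSolvable G] {p : ℕ} [hp : Fact p.Prime] (h5 : 5 ≤ p) {x : G}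
    (hx : x ^ p = 1) (hgen : normalClosure ({x} : Set G) = ⊤) {M : Subgroup G} (hM : IsCoatom M) :
    5 * Nat.card {c : G ⧸ M // x • c = c} ≤ M.index := by
  classical
  set C := M.normalCore with hC
  haveI hCn : C.Normal := normalCore_normal M
  have hCM : C ≤ M := normalCore_le M
  have hxC : x ∉ C := fun h => hM.1 (top_unique (hgen.ge.trans ((normalClosure_le_normal
    (Set.singleton_subset_iff.mpr h)).trans hCM)))
  have hCtop : C ≠ ⊤ := fun h => hxC (h ▸ mem_top x)
  obtain ⟨L, ⟨hLn, hCL⟩, hLmin⟩ := (Set.toFinite {L : Subgroup G | L.Normal ∧ C < L}).exists_minimal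
    ⟨⊤, inferInstance, lt_top_iff_ne_top.mpr hCtop⟩
  haveI := hLn
  have hLM : ¬ L ≤ M := fun h => hCL.not_ge (Subgroup.normal_le_normalCore.mpr h)
  have hsup : M ⊔ L = ⊤ := hM.2 _ (left_lt_sup.mpr hLM)
  -- `L` is abelian modulo `C`
  have hab : ∀ a ∈ L, ∀ b ∈ L, ⁅a, b⁆ ∈ C := by
    intro a ha b hb
    by_contra hnot
    haveI hD : (⁅L, L⁆ ⊔ C).Normal := inferInstance
    have hle : ⁅L, L⁆ ⊔ C ≤ L := sup_le (commutator_le_self L) hCL.le
    have hlt : C < ⁅L, L⁆ ⊔ C := lt_of_le_of_ne le_sup_right fun h =>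
      hnot (h.ge (mem_sup_left (commutator_mem_commutator ha hb)))
    have heq : ⁅L, L⁆ ⊔ C = L := le_antisymm hle (hLmin ⟨hD, hlt⟩ hle)
    have hd : ∀ n, L.map (QuotientGroup.mk' C) ≤ derivedSeries (G ⧸ C) n := by
      intro n
      induction n with
      | zero => exact le_top
      | succ n ih =>
        rw [derivedSeries_succ]
        refine le_trans (le_of_eq ?_) (commutator_mono ih ih)
        conv_lhs => rw [← heq]
        rw [Subgroup.map_sup, map_commutator, QuotientGroup.map_mk'_self, sup_bot_eq]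
    obtain ⟨n, hn⟩ := (Group.IsSolvable.solvable (G := G ⧸ C))
    have h1 := hd n
    rw [hn, le_bot_iff, Subgroup.map_eq_bot_iff, QuotientGroup.ker_mk'] at h1
    exact hCL.not_ge h1
  have hcap : ∀ l ∈ L, l ∈ M → l ∈ C := by
    intro l hl hlM
    have hn : (L ⊓ M).Normal := by
      rw [← normalizer_eq_top_iff, eq_top_iff, ← hsup]
      refine sup_le (fun m hm => ?_) (fun a ha => ?_)
      · refine mem_normalizer_fintype fun y hy => ⟨hLn.conj_mem y hy.1 m, ?_⟩
        exact M.mul_mem (M.mul_mem hm hy.2) (M.inv_mem hm)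
      · refine mem_normalizer_fintype fun y hy => ⟨hLn.conj_mem y hy.1 a, ?_⟩
        have : a * y * a⁻¹ = ⁅a, y⁆ * y := by simp only [commutatorElement_def]; group
        rw [this]
        exact mul_mem (hCM (hab a ha y hy.1)) hy.2
    by_contra hlC
    have hlt : C < L ⊓ M := lt_of_le_of_ne (le_inf hCL.le hCM) fun h => hlC (h.ge ⟨hl, hlM⟩)
    exact hLM ((hLmin ⟨hn, hlt⟩ inf_le_left).trans inf_le_right)
  by_cases hnone : ∀ c : G ⧸ M, x • c ≠ c
  · haveI : IsEmpty {c : G ⧸ M // x • c = c} := ⟨fun c => hnone c.1 c.2⟩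
    simp
  push Not at hnone
  obtain ⟨c₀, hc₀⟩ := hnone
  obtain ⟨g, rfl⟩ := QuotientGroup.mk_surjective c₀
  set y := g⁻¹ * x * g with hy
  have hyM : y ∈ M := by
    have : (QuotientGroup.mk (x * g) : G ⧸ M) = QuotientGroup.mk g := hc₀
    rw [eq_comm, QuotientGroup.eq] at this
    simpa [hy, mul_assoc] using this
  have hyC : y ∉ C := fun h => hxC (by simpa [hy, mul_assoc] using hCn.conj_mem _ h g)
  have hyp : y ^ p = 1 := by
    rw [hy, show g⁻¹ * x * g = g⁻¹ * x * (g⁻¹)⁻¹ by group, conj_pow, hx]; group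
  -- the points are `L / C`
  set L₁ := C.subgroupOf L with hL₁
  haveI : L₁.Normal := inferInstance
  let θ : L ⧸ L₁ → G ⧸ M := Quotient.lift (fun l : L => (QuotientGroup.mk (l : G) : G ⧸ M)) (by
    intro a b h
    have h' : (a⁻¹ * b : L) ∈ L₁ := QuotientGroup.leftRel_apply.mp h
    exact QuotientGroup.eq.mpr (hCM h'))
  have hθ : ∀ l : L, θ (QuotientGroup.mk l) = QuotientGroup.mk (l : G) := fun l => rfl
  have hθinj : Function.Injective θ := by
    intro a b h
    obtain ⟨a, rfl⟩ := QuotientGroup.mk_surjective a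
    obtain ⟨b, rfl⟩ := QuotientGroup.mk_surjective b
    rw [hθ, hθ, QuotientGroup.eq] at h
    exact QuotientGroup.eq.mpr (hcap _ (mul_mem (inv_mem a.2) b.2) h)
  have hθsurj : Function.Surjective θ := by
    intro c
    obtain ⟨z, rfl⟩ := QuotientGroup.mk_surjective c
    have hz : z ∈ ((L ⊔ M : Subgroup G) : Set G) := by rw [sup_comm, hsup]; trivial
    rw [Subgroup.normal_mul] at hz
    obtain ⟨l, hl, m, hm, rfl⟩ := hz
    refine ⟨QuotientGroup.mk ⟨l, hl⟩, ?_⟩
    rw [hθ]
    exact QuotientGroup.eq.mpr (by simpa using hm)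
  let e : L ⧸ L₁ ≃ G ⧸ M := Equiv.ofBijective θ ⟨hθinj, hθsurj⟩
  haveI hQc : IsMulCommutative (L ⧸ L₁) := ⟨⟨fun a b => by
    obtain ⟨a, rfl⟩ := QuotientGroup.mk_surjective a
    obtain ⟨b, rfl⟩ := QuotientGroup.mk_surjective b
    rw [← QuotientGroup.mk_mul, ← QuotientGroup.mk_mul, QuotientGroup.eq, hL₁, mem_subgroupOf]
    have := hab _ (inv_mem b.2) _ (inv_mem a.2)
    simpa [commutatorElement_def, mul_assoc] using this⟩⟩
  -- the fixed points of `y` form a subgroup
  let F₀ : Subgroup L :=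
    { carrier := {l | (l : G)⁻¹ * y * l * y⁻¹ ∈ C}
      one_mem' := by simp
      mul_mem' := by
        intro a b ha hb
        show ((a * b : L) : G)⁻¹ * y * (a * b : L) * y⁻¹ ∈ C
        rw [show ((a * b : L) : G)⁻¹ * y * (a * b : L) * y⁻¹ =
          ((b : G)⁻¹ * ((a : G)⁻¹ * y * a * y⁻¹) * (b : G)⁻¹⁻¹) * ((b : G)⁻¹ * y * b * y⁻¹) by
            simp only [Subgroup.coe_mul]; group]
        exact mul_mem (hCn.conj_mem _ ha _) hb
      inv_mem' := by
        intro a ha
        show ((a⁻¹ : L) : G)⁻¹ * y * (a⁻¹ : L) * y⁻¹ ∈ C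
        rw [show ((a⁻¹ : L) : G)⁻¹ * y * (a⁻¹ : L) * y⁻¹ =
          (a : G) * ((a : G)⁻¹ * y * a * y⁻¹)⁻¹ * (a : G)⁻¹ by simp only [Subgroup.coe_inv]; group]
        exact hCn.conj_mem _ (inv_mem ha) _ }
  have hL₁F : L₁ ≤ F₀ := fun l hl => by
    show (l : G)⁻¹ * y * l * y⁻¹ ∈ C
    rw [show (l : G)⁻¹ * y * l * y⁻¹ = (l : G)⁻¹ * (y * (l : G) * y⁻¹) by group]
    exact mul_mem (inv_mem hl) (hCn.conj_mem _ hl y)
  set F := F₀.map (QuotientGroup.mk' L₁)
  have hfix : ∀ q : L ⧸ L₁, q ∈ F ↔ y • θ q = θ q := by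
    intro q
    obtain ⟨l, rfl⟩ := QuotientGroup.mk_surjective q
    rw [hθ, show y • (QuotientGroup.mk (l : G) : G ⧸ M) = QuotientGroup.mk (y * l) from rfl]
    have h1 : (QuotientGroup.mk l : L ⧸ L₁) ∈ F ↔ l ∈ F₀ := by
      have h2 := Subgroup.comap_map_eq (QuotientGroup.mk' L₁) F₀
      rw [QuotientGroup.ker_mk', sup_eq_left.mpr hL₁F] at h2
      exact (mem_comap (f := QuotientGroup.mk' L₁)).symm.trans (by rw [h2])
    rw [h1, eq_comm, QuotientGroup.eq]
    show (l : G)⁻¹ * y * l * y⁻¹ ∈ C ↔ _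
    constructor
    · intro h
      have := mul_mem (hCM h) hyM
      simpa [mul_assoc] using this
    · intro h
      refine hcap _ ?_ (mul_mem (by simpa [mul_assoc] using h) (inv_mem hyM))
      have := mul_mem (inv_mem l.2) (hLn.conj_mem _ l.2 y)
      simpa [mul_assoc] using this
  have hFne : F.index ≠ 1 := by
    rw [Ne, index_eq_one]
    intro hFt
    let D : Subgroup G :=
      { carrier := {z | z ∈ M ∧ ∀ l ∈ L, ⁅l, z⁆ ∈ C}
        one_mem' := ⟨one_mem M, fun l _ => by simp⟩
        mul_mem' := by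
          intro a b ha hb
          refine ⟨mul_mem ha.1 hb.1, fun l hl => ?_⟩
          rw [show ⁅l, a * b⁆ = ⁅l, a⁆ * (a * ⁅l, b⁆ * a⁻¹) by simp only [commutatorElement_def]; group]
          exact mul_mem (ha.2 l hl) (hCn.conj_mem _ (hb.2 l hl) a)
        inv_mem' := by
          intro a ha
          refine ⟨inv_mem ha.1, fun l hl => ?_⟩
          rw [show ⁅l, a⁻¹⁆ = a⁻¹ * ⁅l, a⁆⁻¹ * a⁻¹⁻¹ by simp only [commutatorElement_def]; group]
          exact hCn.conj_mem _ (inv_mem (ha.2 l hl)) a⁻¹ }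
    have hDn : D.Normal := by
      rw [← normalizer_eq_top_iff, eq_top_iff, ← hsup]
      refine sup_le (fun m hm => ?_) (fun a ha => ?_)
      · refine mem_normalizer_fintype fun z hz => ⟨mul_mem (mul_mem hm hz.1) (inv_mem hm), fun l hl => ?_⟩
        rw [show ⁅l, m * z * m⁻¹⁆ = m * ⁅m⁻¹ * l * m⁻¹⁻¹, z⁆ * m⁻¹ by simp only [commutatorElement_def]; group]
        exact hCn.conj_mem _ (hz.2 _ (hLn.conj_mem l hl m⁻¹)) m
      · refine mem_normalizer_fintype fun z hz => ?_
        rw [show a * z * a⁻¹ = ⁅a, z⁆ * z by simp only [commutatorElement_def]; group]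
        refine D.mul_mem ⟨hCM (hz.2 a ha), fun l hl => ?_⟩ hz
        exact hab l hl _ (hCL.le (hz.2 a ha))
    refine hyC (Subgroup.normal_le_normalCore.mpr (fun z (hz : z ∈ D) => hz.1) ⟨hyM, fun l hl => ?_⟩)
    have h1 := (hfix (QuotientGroup.mk ⟨l, hl⟩)).mp (hFt.symm ▸ mem_top _)
    rw [hθ, show y • (QuotientGroup.mk l : G ⧸ M) = QuotientGroup.mk (y * l) from rfl, eq_comm,
      QuotientGroup.eq] at h1
    refine hcap _ ?_ ?_
    · rw [show ⁅l, y⁆ = l * (y * l⁻¹ * y⁻¹) by simp only [commutatorElement_def]; group]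
      exact mul_mem hl (hLn.conj_mem _ (inv_mem hl) y)
    · -- `l⁻¹ y l ∈ M`, apply to the inverse
      have h2 := (hfix (QuotientGroup.mk ⟨l⁻¹, inv_mem hl⟩)).mp (hFt.symm ▸ mem_top _)
      rw [hθ, show y • (QuotientGroup.mk l⁻¹ : G ⧸ M) = QuotientGroup.mk (y * l⁻¹) from rfl, eq_comm,
        QuotientGroup.eq] at h2
      have := mul_mem (by simpa [mul_assoc] using h2 : l * (y * l⁻¹) ∈ M) (inv_mem hyM)
      simpa [commutatorElement_def, mul_assoc] using this
  -- count modulo `p`
  have hYp : IsPGroup p (zpowers y) := by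
    refine fun z => ⟨1, ?_⟩
    obtain ⟨_, i, rfl⟩ := z
    refine Subtype.ext ?_
    show (y ^ i) ^ p ^ 1 = 1
    rw [pow_one, ← zpow_natCast, ← zpow_mul, mul_comm, zpow_mul, zpow_natCast, hyp, one_zpow]
  have hfp : Nat.card (MulAction.fixedPoints (zpowers y) (G ⧸ M)) = Nat.card F := by
    refine (Nat.card_congr (Equiv.subtypeEquiv e fun q => ?_)).symm
    show q ∈ F ↔ θ q ∈ MulAction.fixedPoints (zpowers y) (G ⧸ M)
    rw [hfix]
    refine ⟨fun h z => ?_, fun h => h ⟨y, mem_zpowers y⟩⟩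
    obtain ⟨_, i, rfl⟩ := z
    exact MulAction.mem_stabilizer_iff.mp (zpow_mem (MulAction.mem_stabilizer_iff.mpr h) i)
  have hmod := hYp.card_modEq_card_fixedPoints (α := G ⧸ M)
  rw [hfp, ← Nat.card_congr e, ← card_mul_index F] at hmod
  have hFx : Nat.card {c : G ⧸ M // x • c = c} = Nat.card F := by
    rw [← hfp]
    refine Nat.card_congr (Equiv.subtypeEquiv (MulAction.toPerm g⁻¹) fun c => ?_)
    show x • c = c ↔ g⁻¹ • c ∈ MulAction.fixedPoints (zpowers y) (G ⧸ M)
    constructor
    · intro h z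
      obtain ⟨_, i, rfl⟩ := z
      have h1 : y • (g⁻¹ • c) = g⁻¹ • c := by
        rw [hy, smul_smul, show g⁻¹ * x * g * g⁻¹ = g⁻¹ * x by group, ← smul_smul, h]
      exact MulAction.mem_stabilizer_iff.mp (zpow_mem (MulAction.mem_stabilizer_iff.mpr h1) i)
    · intro h
      have h1 : y • (g⁻¹ • c) = g⁻¹ • c := h ⟨y, mem_zpowers y⟩
      rw [hy, smul_smul, show g⁻¹ * x * g * g⁻¹ = g⁻¹ * x by group, ← smul_smul] at h1
      exact (MulAction.injective g⁻¹) h1
  have hidx : 5 ≤ F.index := by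
    have h0 : F.index ≠ 0 := index_ne_zero_of_finite
    by_cases hpF : p ∣ Nat.card F
    · -- the points form a `p`-group
      let T : Subgroup G :=
        { carrier := {l | l ∈ L ∧ ∃ j, l ^ p ^ j ∈ C}
          one_mem' := ⟨one_mem L, 0, by simp⟩
          mul_mem' := by
            rintro a b ⟨ha, i, hi⟩ ⟨hb, j, hj⟩
            refine ⟨mul_mem ha hb, i + j, ?_⟩
            have hc : Commute (QuotientGroup.mk ⟨a, ha⟩ : L ⧸ L₁) (QuotientGroup.mk ⟨b, hb⟩) :=
              mul_comm' _ _
            have h1 : ((QuotientGroup.mk ⟨a, ha⟩ : L ⧸ L₁) * QuotientGroup.mk ⟨b, hb⟩) ^ p ^ (i + j) = 1 := by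
              have ha1 : (QuotientGroup.mk ⟨a, ha⟩ : L ⧸ L₁) ^ p ^ i = 1 := by
                rw [← QuotientGroup.mk_pow, QuotientGroup.eq_one_iff]; exact hi
              have hb1 : (QuotientGroup.mk ⟨b, hb⟩ : L ⧸ L₁) ^ p ^ j = 1 := by
                rw [← QuotientGroup.mk_pow, QuotientGroup.eq_one_iff]; exact hj
              rw [hc.mul_pow, pow_add, pow_mul, ha1, one_pow, one_mul, mul_comm, pow_mul, hb1, one_pow]
            rw [← QuotientGroup.mk_mul, ← QuotientGroup.mk_pow, QuotientGroup.eq_one_iff] at h1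
            exact h1
          inv_mem' := by
            rintro a ⟨ha, i, hi⟩
            exact ⟨inv_mem ha, i, by rw [inv_pow]; exact inv_mem hi⟩ }
      have hTn : T.Normal := ⟨fun l ⟨hl, j, hj⟩ z => ⟨hLn.conj_mem l hl z, j, by
        rw [conj_pow]; exact hCn.conj_mem _ hj z⟩⟩
      obtain ⟨⟨t, ht⟩, hto⟩ := exists_prime_orderOf_dvd_card' p hpF
      rw [orderOf_mk] at hto
      obtain ⟨⟨t, htL⟩, rfl⟩ := QuotientGroup.mk_surjective t
      have htT : t ∈ T := ⟨htL, 1, by
        have := pow_orderOf_eq_one (QuotientGroup.mk ⟨t, htL⟩ : L ⧸ L₁)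
        rw [hto, ← QuotientGroup.mk_pow, QuotientGroup.eq_one_iff] at this
        rwa [pow_one]⟩
      have hTL : T = L := le_antisymm (fun z hz => hz.1) (hLmin ⟨hTn, lt_of_le_of_ne
        (fun z hz => ⟨hCL.le hz, 0, by simpa using hz⟩) (fun h => by
          have : (QuotientGroup.mk ⟨t, htL⟩ : L ⧸ L₁) = 1 := (QuotientGroup.eq_one_iff _).mpr (h.ge htT)
          rw [this, orderOf_one] at hto
          exact hp.out.ne_one hto.symm)⟩ fun z hz => hz.1)
      have hLp : IsPGroup p (L ⧸ L₁) := by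
        intro q
        obtain ⟨⟨l, hl⟩, rfl⟩ := QuotientGroup.mk_surjective q
        obtain ⟨-, j, hj⟩ : l ∈ T := hTL.ge hl
        exact ⟨j, by rw [← QuotientGroup.mk_pow, QuotientGroup.eq_one_iff]; exact hj⟩
      obtain ⟨k, hk⟩ := hLp.index F
      rw [hk] at hFne ⊢
      refine h5.trans (Nat.le_self_pow ?_ p)
      rintro rfl
      exact hFne (pow_zero p)
    · have hr : F.index ≡ 1 [MOD p] := by
        refine Nat.ModEq.cancel_left_of_coprime ((hp.out.coprime_iff_not_dvd.mpr hpF)) ?_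
        rwa [mul_one]
      have := (Nat.modEq_iff_dvd' (Nat.one_le_iff_ne_zero.mpr h0)).mp hr.symm
      have := Nat.le_of_dvd (by omega) this
      omega
  rw [hFx, index_eq_card M, ← Nat.card_congr e, ← card_mul_index F, mul_comm 5]
  exact Nat.mul_le_mul_left _ hidx

/-- In a solvable transitive group a normally generating element of prime order at least five fixes at
most a fifth of the points. -/
theorem fixed_le_fifth [Group.IsSolvable G] {Ω : Type*} [MulAction G Ω] [Finite Ω]
    [MulAction.IsPretransitive G Ω] [Nontrivial Ω] {p : ℕ} [hp : Fact p.Prime] (h5 : 5 ≤ p) {x : G}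
    (hx : x ^ p = 1) (hgen : normalClosure ({x} : Set G) = ⊤) :
    5 * Nat.card {ω : Ω // x • ω = ω} ≤ Nat.card Ω := by
  obtain ⟨a⟩ := (inferInstance : Nonempty Ω)
  set H := MulAction.stabilizer G a
  have hH : H ≠ ⊤ := by
    intro h
    obtain ⟨u, v, huv⟩ := exists_pair_ne Ω
    obtain ⟨g, rfl⟩ := MulAction.exists_smul_eq G a u
    obtain ⟨g', rfl⟩ := MulAction.exists_smul_eq G a v
    refine huv ?_
    have hall : ∀ z : G, z • a = a := fun z => MulAction.mem_stabilizer_iff.mp
      (by rw [show MulAction.stabilizer G a = ⊤ from h]; exact mem_top z)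
    rw [hall g, hall g']
  obtain ⟨M, hM, hHM⟩ := (IsCoatomic.eq_top_or_exists_le_coatom H).resolve_left hH
  let π : G ⧸ H → G ⧸ M := Subgroup.quotientMapOfLE hHM
  have h1 : Nat.card {ω : Ω // x • ω = ω} ≤ Nat.card {c : G ⧸ M // x • c = c} * H.relIndex M := by
    classical
    let E : G ⧸ H ≃ (G ⧸ M) × (M ⧸ H.subgroupOf M) := Subgroup.quotientEquivProdOfLE hHM
    let f : {ω : Ω // x • ω = ω} → {c : G ⧸ M // x • c = c} × (M ⧸ H.subgroupOf M) := fun ω =>
      let g := (MulAction.exists_smul_eq G a ω.1).choose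
      (⟨QuotientGroup.mk g, by
        have hg : g • a = ω.1 := (MulAction.exists_smul_eq G a ω.1).choose_spec
        show (QuotientGroup.mk (x * g) : G ⧸ M) = QuotientGroup.mk g
        refine QuotientGroup.eq.mpr (hHM (MulAction.mem_stabilizer_iff.mpr ?_))
        rw [show ((x * g)⁻¹ * g) = g⁻¹ * x⁻¹ * g by group, mul_smul, mul_smul, hg]
        rw [inv_smul_eq_iff, hg, inv_smul_eq_iff]
        exact ω.2.symm⟩, (E (QuotientGroup.mk g)).2)
    refine (Nat.card_le_card_of_injective f fun u v huv => Subtype.ext ?_).trans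
      (le_of_eq (by rw [Nat.card_prod]; rfl))
    have hu := (MulAction.exists_smul_eq G a u.1).choose_spec
    have hv := (MulAction.exists_smul_eq G a v.1).choose_spec
    simp only [f, Prod.mk.injEq, Subtype.mk.injEq] at huv
    have he : E (QuotientGroup.mk (MulAction.exists_smul_eq G a u.1).choose) =
        E (QuotientGroup.mk (MulAction.exists_smul_eq G a v.1).choose) := Prod.ext huv.1 huv.2
    have := MulAction.mem_stabilizer_iff.mp (QuotientGroup.eq.mp (E.injective he))
    rw [mul_smul, inv_smul_eq_iff, hv, hu] at this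
    exact this.symm
  have h2 : Nat.card Ω = H.relIndex M * M.index := by
    rw [Subgroup.relIndex_mul_index hHM, MulAction.index_stabilizer_of_transitive G a]
  rw [h2]
  calc 5 * Nat.card {ω : Ω // x • ω = ω} ≤ 5 * (Nat.card {c : G ⧸ M // x • c = c} * H.relIndex M) :=
        Nat.mul_le_mul_left 5 h1
    _ = (5 * Nat.card {c : G ⧸ M // x • c = c}) * H.relIndex M := by ring
    _ ≤ M.index * H.relIndex M := Nat.mul_le_mul_right _ (fixed_cosets h5 hx hgen hM)
    _ = _ := mul_comm _ _

end Group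

section Orbits

variable {ι : Type*} [Finite ι]

/-- The number of orbits of a permutation of prime order. -/
theorem orbit_count {p : ℕ} [hp : Fact p.Prime] (σ : Equiv.Perm ι) (hσ : σ ^ p = 1) :
    p * Nat.card (Quotient (MulAction.orbitRel (Subgroup.zpowers σ) ι)) + Nat.card {i // σ i = i} ≤
      Nat.card ι + p * Nat.card {i // σ i = i} := by
  classical
  haveI := Fintype.ofFinite ι
  by_cases h1 : σ = 1
  · subst h1
    have hz : ∀ i : ι, (1 : Equiv.Perm ι) i = i := fun i => rfl
    rw [Nat.card_congr (Equiv.subtypeUnivEquiv hz)]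
    have hle : Nat.card (Quotient (MulAction.orbitRel (Subgroup.zpowers (1 : Equiv.Perm ι)) ι)) ≤ Nat.card ι :=
      Nat.card_le_card_of_surjective _ Quotient.mk_surjective
    have := Nat.mul_le_mul_left p hle
    omega
  set P := Subgroup.zpowers σ
  haveI := Fintype.ofFinite P
  have ho : orderOf σ = p := orderOf_eq_prime hσ h1
  have hb := MulAction.sum_card_fixedBy_eq_card_orbits_mul_card_group P ι
  rw [← Nat.card_eq_fintype_card (α := P), Nat.card_zpowers, ho] at hb
  have hfix : ∀ s : P, s ≠ 1 → Fintype.card (MulAction.fixedBy ι s) = Nat.card {i // σ i = i} := by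
    intro s hs
    rw [← Nat.card_eq_fintype_card]
    refine Nat.card_congr (Equiv.subtypeEquiv (Equiv.refl ι) fun i => ?_)
    obtain ⟨τ, hτ⟩ := s
    have hτ1 : τ ≠ 1 := fun h => hs (Subtype.ext h)
    show τ i = i ↔ σ i = i
    have hτo : orderOf τ = p := by
      obtain ⟨j, rfl⟩ := hτ
      refine orderOf_eq_prime ?_ hτ1
      show (σ ^ j) ^ p = 1
      rw [← zpow_natCast, ← zpow_mul, mul_comm, zpow_mul, zpow_natCast, hσ, one_zpow]
    have hgen : Subgroup.zpowers τ = P := Subgroup.eq_of_le_of_card_ge (Subgroup.zpowers_le.mpr hτ)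
      (by rw [Nat.card_zpowers, Nat.card_zpowers, ho, hτo])
    constructor
    · intro h
      exact MulAction.mem_stabilizer_iff.mp ((Subgroup.zpowers_le.mpr (MulAction.mem_stabilizer_iff.mpr
        (show τ • i = i from h))) (hgen.ge (Subgroup.mem_zpowers σ)))
    · intro h
      exact MulAction.mem_stabilizer_iff.mp ((Subgroup.zpowers_le.mpr (MulAction.mem_stabilizer_iff.mpr
        (show σ • i = i from h))) hτ)
  rw [← Finset.add_sum_erase _ _ (Finset.mem_univ (1 : P)),
    Finset.sum_congr rfl (fun s hs => hfix s (Finset.ne_of_mem_erase hs)), Finset.sum_const,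
    Finset.card_erase_of_mem (Finset.mem_univ _), Finset.card_univ, smul_eq_mul,
    ← Nat.card_eq_fintype_card (α := P), Nat.card_zpowers, ho] at hb
  have h11 : Fintype.card (MulAction.fixedBy ι (1 : P)) = Nat.card ι := by
    rw [← Nat.card_eq_fintype_card]
    exact Nat.card_congr (Equiv.subtypeUnivEquiv fun i => one_smul P i)
  rw [h11, ← Nat.card_eq_fintype_card] at hb
  rw [mul_comm p (Nat.card (Quotient _)), ← hb]
  obtain ⟨t, ht⟩ := Nat.exists_eq_add_of_le hp.out.one_le
  subst ht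
  rw [Nat.add_sub_cancel_left, add_mul, one_mul]
  omega

/-- Fixed vectors of an operator permuting the pieces of a decomposition. -/
theorem fix_le_orbits {E U : Type*} [Field E] [AddCommGroup U] [Module E U] [FiniteDimensional E U]
    (σ : Equiv.Perm ι) (T : U →ₗ[E] U) (π : ι → U →ₗ[E] U) (d : ℕ)
    (hd : ∀ i, Module.finrank E (LinearMap.range (π i)) ≤ d) (hsum : ∀ u, (∀ i, π i u = 0) → u = 0)
    (hconj : ∀ i u, π (σ i) (T u) = T (π i u)) :
    Module.finrank E (LinearMap.ker (T - 1)) ≤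
      Nat.card (Quotient (MulAction.orbitRel (Subgroup.zpowers σ) ι)) * d := by
  classical
  set O := Quotient (MulAction.orbitRel (Subgroup.zpowers σ) ι)
  haveI := Fintype.ofFinite O
  let f : LinearMap.ker (T - 1) →ₗ[E] ((o : O) → LinearMap.range (π o.out)) :=
    LinearMap.pi fun o => (π o.out).rangeRestrict.comp (LinearMap.ker (T - 1)).subtype
  have hf : Function.Injective f := by
    rw [injective_iff_map_eq_zero]
    rintro ⟨u, hu⟩ hfu
    apply Subtype.ext
    have hTu : T u = u := by simpa [sub_eq_zero] using hu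
    refine hsum u fun i => ?_
    obtain ⟨⟨τ, hτ⟩, hi⟩ := (MulAction.orbitRel_apply.mp (Quotient.mk_out (s :=
      MulAction.orbitRel (Subgroup.zpowers σ) ι) i) : _ ∈ MulAction.orbit _ i)
    set o : O := Quotient.mk _ i
    have ho : π o.out u = 0 := congrArg Subtype.val (congrFun hfu o)
    have hi' : τ i = o.out := hi
    have hiff : ∀ j, (π (σ j) u = 0 ↔ π j u = 0) := by
      intro j
      have h3 := hconj j u
      rw [hTu] at h3
      constructor
      · intro h
        have hall : ∀ n : ℕ, π ((σ ^ (n + 1)) j) u = 0 := by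
          intro n
          induction n with
          | zero => simpa using h
          | succ n ih =>
            have := hconj ((σ ^ (n + 1)) j) u
            rw [hTu, ih, map_zero] at this
            rw [pow_succ', Equiv.Perm.mul_apply]
            exact this
        have := hall (orderOf σ - 1)
        rwa [Nat.sub_add_cancel (orderOf_pos σ), pow_orderOf_eq_one, Equiv.Perm.one_apply] at this
      · intro h
        rw [h3, h, map_zero]
    have hstep : ∀ n : ℕ, ∀ j, π ((σ ^ n) j) u = 0 ↔ π j u = 0 := by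
      intro n
      induction n with
      | zero => intro j; simp
      | succ n ih => intro j; rw [pow_succ', Equiv.Perm.mul_apply, hiff, ih]
    obtain ⟨m, rfl⟩ := (IsOfFinOrder.mem_powers_iff_mem_zpowers (isOfFinOrder_of_finite σ)).mpr hτ
    rw [← hi'] at ho
    exact (hstep m i).mp ho
  refine (LinearMap.finrank_le_finrank_of_injective hf).trans ?_
  rw [Module.finrank_pi_fintype, Nat.card_eq_fintype_card]
  refine (Finset.sum_le_sum fun o _ => hd o.out).trans (le_of_eq ?_)
  rw [Finset.sum_const, Finset.card_univ, smul_eq_mul]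

end Orbits

end Cfsg.Agent.Lib.FixHalf
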